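import Cfsg.Agent.H173.EP.SLC2
import Cfsg.Agent.H128.EP.AsmPsl

/-!
# S3499-III: the row `C2` of `PslNonRes` (helper173)
-/

set_option autoImplicit false

namespace Cfsg.Agent.H173.EP

theorem row_c2 : Cfsg.Agent.H128.EP.Row (fun F _ _ n H => Cfsg.Agent.H128.EP.C2 F n H) := by
  intro Q _ _ _ A Γ h F _ _ n m hn h32 h34 h42 hC
  obtain ⟨t, k, D, hD, hA⟩ := hC
  exact sl_c2 h m hn h32 h34 h42 hD hA

end Cfsg.Agent.H173.EP
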