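import Cfsg.Agent.H173.EP.WrWM
import Cfsg.Agent.H419.EP.Iface

/-!
# S3499-III-SL-C2: the imprimitive subgroups of `SL_n(F)` (helper173)
-/

set_option autoImplicit false

namespace Cfsg.Agent.H173.EP

open Subgroup Cfsg.Agent.H284 Cfsg.Agent.H419.EP
open scoped MatrixGroups

/-- coordinates adapted to a decomposition -/
theorem exists_coord {n t k : ℕ} {F : Type*} [Field F] {D : Fin t → Submodule F (Fin n → F)}
    (hD : Cfsg.Geo.IsMDecomposition k D) (E : Type*) [Field E] [Algebra F E] [FiniteDimensional F E]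
    (hE : Module.finrank F E = k) :
    ∃ ψ : (Fin n → F) ≃ₗ[F] (Fin t → E), ∀ i v, v ∈ D i ↔ ∃ w, ψ v = Pi.single i w := by
  have hint := DirectSum.isInternal_submodule_of_iSupIndep_of_iSup_eq_top hD.indep hD.iSup_eq_top
  let e0 : (DirectSum (Fin t) fun i => D i) ≃ₗ[F] (Fin n → F) := LinearEquiv.ofBijective (DirectSum.coeLinearMap D) hint
  let e1 : (DirectSum (Fin t) fun i => D i) ≃ₗ[F] (∀ i, D i) := DirectSum.linearEquivFunOnFintype F (Fin t) (fun i => D i)
  let f : ∀ i, D i ≃ₗ[F] E := fun i => LinearEquiv.ofFinrankEq (D i) E ((hD.finrank_eq i).trans hE.symm)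
  let e2 : (∀ i, D i) ≃ₗ[F] (Fin t → E) := LinearEquiv.piCongrRight f
  let ψ : (Fin n → F) ≃ₗ[F] (Fin t → E) := e0.symm.trans (e1.trans e2)
  have hs : ∀ i (v : D i), ψ v = Pi.single i (f i v) := by
    intro i v
    have h1 : e0 (DirectSum.lof F (Fin t) (fun i => D i) i v) = (v : Fin n → F) :=
      DirectSum.coeLinearMap_lof D i v
    show e2 (e1 (e0.symm v)) = _
    rw [← h1, LinearEquiv.symm_apply_apply]
    have h2 : e1 (DirectSum.lof F (Fin t) (fun i => D i) i v) = Pi.single i v :=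
      DirectSum.linearEquivFunOnFintype_lof F (M := fun i => D i) i v
    rw [h2]
    funext j
    show f j ((Pi.single i v : ∀ i, D i) j) = _
    by_cases hj : j = i
    · subst hj
      rw [Pi.single_eq_same, Pi.single_eq_same]
    · rw [Pi.single_eq_of_ne hj, Pi.single_eq_of_ne hj, map_zero]
  refine ⟨ψ, fun i v => ⟨fun hv => ⟨_, hs i ⟨v, hv⟩⟩, ?_⟩⟩
  rintro ⟨w, hw⟩
  have h1 := hs i ((f i).symm w)
  rw [LinearEquiv.apply_symm_apply, ← hw] at h1
  rw [← ψ.injective h1]
  exact ((f i).symm w).2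

section toGL

variable {n : ℕ} {F : Type*} [Field F] {U : Type*} [AddCommGroup U] [Module F U] (ψ : (Fin n → F) ≃ₗ[F] U)

/-- conjugation by `ψ` -/
def cjE : (U ≃ₗ[F] U) →* ((Fin n → F) ≃ₗ[F] (Fin n → F)) where
  toFun g := (ψ.trans g).trans ψ.symm
  map_one' := LinearEquiv.ext fun v => ψ.symm_apply_apply v
  map_mul' f g := LinearEquiv.ext fun v => by
    show ψ.symm (f (g (ψ v))) = ψ.symm (f (ψ (ψ.symm (g (ψ v)))))
    rw [LinearEquiv.apply_symm_apply]

/-- the matrix of a linear automorphism -/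
def toG : (U ≃ₗ[F] U) →* GL (Fin n) F :=
  (Matrix.GeneralLinearGroup.toLin.symm.toMonoidHom.comp
    (LinearMap.GeneralLinearGroup.generalLinearEquiv F (Fin n → F)).symm.toMonoidHom).comp (cjE ψ)

theorem toG_coe (g : U ≃ₗ[F] U) : ((toG ψ g : GL (Fin n) F) : Matrix (Fin n) (Fin n) F) =
    LinearMap.toMatrix' (((ψ.trans g).trans ψ.symm : (Fin n → F) ≃ₗ[F] (Fin n → F)) : (Fin n → F) →ₗ[F] (Fin n → F)) := rfl

theorem toLin_toG (g : U ≃ₗ[F] U) (v : Fin n → F) :
    Matrix.toLin' ((toG ψ g : GL (Fin n) F) : Matrix (Fin n) (Fin n) F) v = ψ.symm (g (ψ v)) := by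
  rw [toG_coe, Matrix.toLin'_toMatrix']
  rfl

theorem det_toG (g : U ≃ₗ[F] U) : Matrix.GeneralLinearGroup.det (toG ψ g) = LinearEquiv.det g := by
  apply Units.ext
  rw [LinearEquiv.coe_det]
  show Matrix.det ((toG ψ g : GL (Fin n) F) : Matrix (Fin n) (Fin n) F) = _
  rw [toG_coe, LinearMap.det_toMatrix']
  have := LinearMap.det_conj (g : U →ₗ[F] U) ψ.symm
  rw [← this]
  rfl

theorem exists_toG (A : GL (Fin n) F) : ∃ g : U ≃ₗ[F] U, toG ψ g = A := by
  let a : (Fin n → F) ≃ₗ[F] (Fin n → F) :=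
    LinearMap.GeneralLinearGroup.generalLinearEquiv F (Fin n → F) (Matrix.GeneralLinearGroup.toLin A)
  refine ⟨(ψ.symm.trans a).trans ψ, ?_⟩
  apply Units.ext
  apply (Matrix.toLin' (R := F) (m := Fin n) (n := Fin n)).injective
  ext1 v
  apply LinearMap.ext
  intro x
  rw [LinearMap.comp_apply, LinearMap.comp_apply, toLin_toG]
  show ψ.symm (ψ (a (ψ.symm (ψ _)))) = _
  rw [LinearEquiv.symm_apply_apply, LinearEquiv.symm_apply_apply]
  rfl

theorem toG_scalars (g : U ≃ₗ[F] U) : toG ψ g ∈ Cfsg.Geo.scalars (Fin n) F ↔ ∃ l : F, ∀ u, g u = l • u := by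
  rw [Cfsg.Geo.mem_scalars_iff]
  constructor
  · rintro ⟨c, hc⟩
    refine ⟨c, fun u => ?_⟩
    have h1 := toLin_toG ψ g (ψ.symm u)
    rw [hc, LinearEquiv.apply_symm_apply, map_smul, Matrix.toLin'_one] at h1
    have h2 : (c : F) • ψ.symm u = ψ.symm (g u) := h1
    rw [← map_smul] at h2
    exact (ψ.symm.injective h2).symm
  · rintro ⟨l, hl⟩
    obtain ⟨c, hc⟩ : ∃ c : Fˣ, ∀ u, g u = (c : F) • u := by
      by_cases h0 : l = 0
      · refine ⟨1, fun u => ?_⟩
        have h1 := hl u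
        rw [h0, zero_smul, LinearEquiv.map_eq_zero_iff] at h1
        rw [h1, map_zero, smul_zero]
      · exact ⟨Units.mk0 l h0, hl⟩
    refine ⟨c, ?_⟩
    apply (Matrix.toLin' (R := F) (m := Fin n) (n := Fin n)).injective
    apply LinearMap.ext
    intro v
    rw [toLin_toG, hc, map_smul, LinearEquiv.symm_apply_apply, map_smul, Matrix.toLin'_one]
    rfl

end toGL

/-- the model `SL(U) → Q` -/
theorem exists_WM {n t k : ℕ} {F : Type*} [Field F] {D : Fin t → Submodule F (Fin n → F)}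
    (hD : Cfsg.Geo.IsMDecomposition k D) (E : Type*) [Field E] [Algebra F E] [FiniteDimensional F E]
    (hE : Module.finrank F E = k) {Q : Type*} [Group Q] {A : Subgroup Q}
    (m : Model Q (Cfsg.Geo.specialLinear (Fin n) F)) (hA : m.hat A ≤ Cfsg.Geo.decompositionStabilizer D) :
    Nonempty (WM A F E (Fin t)) := by
  obtain ⟨ψ, hψ⟩ := exists_coord hD E hE
  have hker : ∀ g : (LinearEquiv.det : ((Fin t → E) ≃ₗ[F] (Fin t → E)) →* Fˣ).ker,
      toG ψ (g : (Fin t → E) ≃ₗ[F] (Fin t → E)) ∈ Cfsg.Geo.specialLinear (Fin n) F := by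
    intro g
    show Matrix.GeneralLinearGroup.det _ = 1
    rw [det_toG]
    exact g.2
  let Θ : (LinearEquiv.det : ((Fin t → E) ≃ₗ[F] (Fin t → E)) →* Fˣ).ker →* Cfsg.Geo.specialLinear (Fin n) F :=
    ((toG ψ).comp (Subgroup.subtype _)).codRestrict _ hker
  refine ⟨⟨m.π.comp Θ, ?_, ?_, ?_⟩⟩
  · intro q
    obtain ⟨s, rfl⟩ := m.surj q
    obtain ⟨g, hg⟩ := exists_toG ψ (s : GL (Fin n) F)
    have hgd : LinearEquiv.det g = 1 := by
      rw [← det_toG ψ, hg]
      exact s.2
    exact ⟨⟨g, hgd⟩, congrArg m.π (Subtype.ext hg)⟩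
  · intro g
    rw [MonoidHom.comp_apply, m.ker]
    exact toG_scalars ψ _
  · intro g hg
    have h1 : toG ψ (g : (Fin t → E) ≃ₗ[F] (Fin t → E)) ∈ Cfsg.Geo.decompositionStabilizer D :=
      hA ((m.mem_hat_iff (Θ g)).2 hg)
    obtain ⟨σ, hσ⟩ := h1
    refine ⟨σ, fun i w => ?_⟩
    have h2 : ψ.symm (Pi.single i w) ∈ D i := (hψ i _).2 ⟨w, LinearEquiv.apply_symm_apply _ _⟩
    have h3 : Matrix.toLin' ((toG ψ (g : (Fin t → E) ≃ₗ[F] (Fin t → E)) : GL (Fin n) F) :
        Matrix (Fin n) (Fin n) F) (ψ.symm (Pi.single i w)) ∈ D (σ i) := by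
      rw [← hσ i]
      exact Submodule.mem_map_of_mem h2
    rw [toLin_toG, LinearEquiv.apply_symm_apply] at h3
    obtain ⟨w', hw'⟩ := (hψ _ _).1 h3
    rw [LinearEquiv.apply_symm_apply] at hw'
    exact ⟨w', hw'⟩

/-- **S3499-III-SL-C2** -/
theorem sl_c2 {Q : Type*} [Group Q] [Finite Q] {A : Subgroup Q} {Γ : Subgroup (MulAut Q)} (h : EPT A Γ) {F : Type*}
    [Field F] [Fintype F] {n : ℕ} (m : Model Q (Cfsg.Geo.specialLinear (Fin n) F)) (hn : 3 ≤ n)
    (h32 : ¬ (n = 3 ∧ Fintype.card F = 2)) (h34 : ¬ (n = 3 ∧ Fintype.card F = 4)) (h42 : ¬ (n = 4 ∧ Fintype.card F = 2))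
    {t k : ℕ} {D : Fin t → Submodule F (Fin n → F)} (hD : Cfsg.Geo.IsMDecomposition k D)
    (hA : m.hat A ≤ Cfsg.Geo.decompositionStabilizer D) : False := by
  have ht := hD.two_le
  have hk := hD.pos
  by_cases hk2 : 2 ≤ k
  · -- `mm ≥ 2`
    obtain ⟨p, hp⟩ := CharP.exists F
    have hpp : Fact p.Prime := ⟨CharP.char_is_prime F p⟩
    have : NeZero k := ⟨by omega⟩
    have hE := FiniteField.finrank_extension F p k
    obtain ⟨W⟩ := exists_WM hD (FiniteField.Extension F p k) hE m hA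
    obtain ⟨c, a, hc0, hc1, hcc, ha0, haN, hal⟩ := exists_ca F (FiniteField.Extension F p k) (by rw [hE]; exact hk2)
    exact W.case_I h (i0 := ⟨0, by omega⟩) (i1 := ⟨1, by omega⟩) (by
      intro e
      exact absurd (Fin.mk.inj e) (by norm_num)) hc0 hc1 hcc ha0 haN hal
  · have hk1 : k = 1 := by omega
    subst hk1
    obtain ⟨W⟩ := exists_WM hD F (Module.finrank_self F) m hA
    -- `t = n`
    have htn : t = n := by
      obtain ⟨ψ, -⟩ := exists_coord hD F (Module.finrank_self F)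
      have h1 := ψ.finrank_eq
      rw [Module.finrank_fin_fun, Module.finrank_fin_fun] at h1
      exact h1.symm
    subst htn
    have h01 : (⟨0, by omega⟩ : Fin t) ≠ ⟨1, by omega⟩ := fun e => absurd (Fin.mk.inj e) (by norm_num)
    have h02 : (⟨0, by omega⟩ : Fin t) ≠ ⟨2, by omega⟩ := fun e => absurd (Fin.mk.inj e) (by norm_num)
    have h12 : (⟨1, by omega⟩ : Fin t) ≠ ⟨2, by omega⟩ := fun e => absurd (Fin.mk.inj e) (by norm_num)
    have hq2 : 2 ≤ Fintype.card F := Fintype.one_lt_card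
    by_cases hq : Fintype.card F = 2
    · refine W.case_III h.max h01 h02 h12 ?_
      intro a
      by_cases ha : a = 0
      · exact Or.inl ha
      · right
        have h1 := FiniteField.pow_card_sub_one_eq_one a ha
        rw [hq] at h1
        simpa using h1
    · obtain ⟨l, hl0, hl⟩ : ∃ l : F, l ≠ 0 ∧ (l * l * l ≠ 1 ∨ (l ≠ 1 ∧ 4 ≤ t)) := by
        by_cases ht4 : 4 ≤ t
        · obtain ⟨l, hl0, hl1⟩ : ∃ l : F, l ≠ 0 ∧ l ≠ 1 := by
            by_contra hcon
            push Not at hcon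
            apply hq
            classical
            have h1 : (Finset.univ : Finset F) = {0, 1} := by
              ext a
              simp only [Finset.mem_univ, Finset.mem_insert, Finset.mem_singleton, true_iff]
              by_cases ha : a = 0
              · exact Or.inl ha
              · exact Or.inr (hcon a ha)
            rw [← Finset.card_univ, h1, Finset.card_pair zero_ne_one]
          exact ⟨l, hl0, Or.inr ⟨hl1, ht4⟩⟩
        · have ht3 : t = 3 := by omega
          obtain ⟨c, hc⟩ := IsCyclic.exists_ofOrder_eq_natCard (α := Fˣ)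
          have hcard : Nat.card Fˣ = Fintype.card F - 1 := by
            classical
            rw [Nat.card_eq_fintype_card, Fintype.card_units]
          rw [hcard] at hc
          refine ⟨c, c.ne_zero, Or.inl ?_⟩
          intro e
          have h1 : c ^ 3 = 1 := by
            apply Units.ext
            rw [pow_succ, pow_two, Units.val_mul, Units.val_mul, e, Units.val_one]
          have h2 := orderOf_dvd_of_pow_eq_one h1
          rw [hc] at h2
          have h3 := (Nat.dvd_prime Nat.prime_three).1 h2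
          rcases h3 with h3 | h3
          · exact hq (by omega)
          · exact h34 ⟨ht3, by omega⟩
      refine W.case_II h h01 h02 h12 hl0 ?_
      rcases hl with hl | ⟨hl, h4⟩
      · exact Or.inl hl
      · refine Or.inr ⟨hl, ⟨3, by omega⟩, fun e => absurd (Fin.mk.inj e) (by norm_num),
          fun e => absurd (Fin.mk.inj e) (by norm_num), fun e => absurd (Fin.mk.inj e) (by norm_num)⟩

end Cfsg.Agent.H173.EP
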