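import Cfsg.Agent.H284.EP.TForm
import Cfsg.Agent.Lib.Cores

/-!
# S3499: two criteria used for the imprimitive subgroups (helper173)

* `kill_sq`: the subgroup generated by the squares of `M0 = A ∩ A^x`;
* `nilp_cent`: centralisers of elements of abelian normal subgroups of `A`.
-/

set_option autoImplicit false

namespace Cfsg.Agent.H173.EP

open Subgroup Cfsg Cfsg.Agent.Lib.Cores Cfsg.Agent.H284

section crit

variable {Q : Type*} [Group Q] {A : Subgroup Q} {Γ : Subgroup (MulAut Q)} (h : EPT A Γ)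

include h

/-- **squares criterion** -/
theorem kill_sq {x : Q} (hx : x ∉ A) {s : Q} (hs : s ∈ A ⊓ cj x A) (hs2 : s * s ≠ 1) {g : Q} (hg : g ∈ A)
    (hgc : ∀ s ∈ A ⊓ cj x A, g * (s * s) = (s * s) * g) : g ∈ cj x A := by
  refine h.norm_aut hx (K := Subgroup.closure {y | ∃ s ∈ A ⊓ cj x A, y = s * s}) ?_ ?_ ?_ hg ?_
  · rw [Subgroup.closure_le]
    rintro _ ⟨s, hs, rfl⟩
    exact mul_mem hs hs
  · intro σ hσ k hk
    induction hk using Subgroup.closure_induction with
    | mem y hy =>
      obtain ⟨s, hs, rfl⟩ := hy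
      exact Subgroup.subset_closure ⟨σ s, hσ s hs, map_mul σ s s⟩
    | one => rw [map_one]; exact one_mem _
    | mul a b _ _ ha hb => rw [map_mul]; exact mul_mem ha hb
    | inv a _ ha => rw [map_inv]; exact inv_mem ha
  · intro e
    have h1 : s * s ∈ (⊥ : Subgroup Q) := by
      rw [← e]
      exact Subgroup.subset_closure ⟨s, hs, rfl⟩
    exact hs2 (mem_bot.1 h1)
  · intro k hk
    have h1 : g * k = k * g := by
      induction hk using Subgroup.closure_induction with
      | mem y hy =>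
        obtain ⟨s, hs, rfl⟩ := hy
        exact hgc s hs
      | one => rw [mul_one, one_mul]
      | mul a b _ _ ha hb => rw [← mul_assoc, ha, mul_assoc, hb, mul_assoc]
      | inv a _ ha =>
        rw [eq_inv_mul_iff_mul_eq, ← mul_assoc, ← ha, mul_assoc, mul_inv_cancel, mul_one]
    rw [h1, mul_inv_cancel_right]
    exact hk

/-- **centralisers of elements of abelian normal subgroups of `A`** -/
theorem nilp_cent [Finite Q] {K : Subgroup Q} (hK : K ≤ A) (hKn : ∀ a ∈ A, ∀ k ∈ K, a * k * a⁻¹ ∈ K)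
    (hKc : ∀ a ∈ K, ∀ b ∈ K, a * b = b * a) {k : Q} (hk : k ∈ K) (hk1 : k ≠ 1) {x : Q} (hxk : x * k = k * x) :
    x ∈ A := by
  by_contra hx
  have hKF : K.subgroupOf A ≤ fittingSubgroup A := by
    refine le_fittingSubgroup ⟨?_⟩ ?_
    · intro n hn g
      exact hKn g g.2 n hn
    · let _ : CommGroup (K.subgroupOf A) :=
        { (inferInstance : Group (K.subgroupOf A)) with
          mul_comm := fun a b => Subtype.ext (Subtype.ext (hKc _ a.2 _ b.2)) }
      exact CommGroup.isNilpotent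
  have hkF : k ∈ (fittingSubgroup A).map A.subtype := ⟨⟨k, hK hk⟩, hKF hk, rfl⟩
  have hnil : Group.IsNilpotent ((fittingSubgroup A).map A.subtype) :=
    (isNilpotent_map_equiv A.subtype_injective _).2 fittingSubgroup_isNilpotent
  have hne : (fittingSubgroup A).map A.subtype ≠ ⊥ := by
    intro e
    rw [e, mem_bot] at hkF
    exact hk1 hkF
  have hinv : ∀ σ ∈ Γ, ∀ y ∈ (fittingSubgroup A).map A.subtype, σ y ∈ (fittingSubgroup A).map A.subtype := by
    rintro σ hσ _ ⟨y, hy, rfl⟩
    let e : A ≃* A :=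
      { toFun := fun a => ⟨σ a, (h.inv σ hσ _).2 a.2⟩
        invFun := fun a => ⟨σ⁻¹ a, (h.inv σ⁻¹ (inv_mem hσ) _).2 a.2⟩
        left_inv := fun a => Subtype.ext (MulAut.inv_apply_self _ σ _)
        right_inv := fun a => Subtype.ext (MulAut.apply_inv_self _ σ _)
        map_mul' := fun a b => Subtype.ext (map_mul σ _ _) }
    have h1 := map_equiv_fittingSubgroup e
    have h2 : e y ∈ fittingSubgroup A := by
      rw [← h1]
      exact ⟨y, hy, rfl⟩
    exact ⟨e y, h2, rfl⟩
  obtain ⟨-, -, -, h4, -⟩ := h.nilp _ (map_subtype_le _) hinv hnil hne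
  have h5 : k ∈ (fittingSubgroup A).map A.subtype ⊓ cj x A := by
    refine ⟨hkF, mem_cj.2 ?_⟩
    have : x⁻¹ * k * x = k := by rw [mul_assoc, ← hxk, inv_mul_cancel_left]
    rw [this]
    exact hK hk
  rw [(h4 x hx).1, mem_bot] at h5
  exact hk1 h5

end crit

end Cfsg.Agent.H173.EP
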