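import Cfsg.Agent.H173.EP.WrLin

/-!
# S3499: the key computation for the imprimitive subgroups (helper173)

`x` maps the axes `E e₀`, `E e₁` to the graphs `{(w, w)}`, `{(w, c w)}` and fixes the other axes. If `s` permutes the axes and
their images under `x` then `s²` commutes with `diag(c, c⁻¹, 1, …, 1)`.
-/

set_option autoImplicit false

namespace Cfsg.Agent.H173.EP

theorem alg_id {E : Type*} [Field E] {c : E} (hc : c ≠ 0) {α β : E → E}
    (h : ((∀ w, β w = α w) ∧ (∀ w, β (c * w) = c * α w)) ∨ ((∀ w, β w = c * α w) ∧ (∀ w, β (c * w) = α w))) (w : E) :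
    α (α (c * w)) = c * α (α w) ∧ β (β (c * w)) = c * β (β w) := by
  rcases h with ⟨h1, h2⟩ | ⟨h1, h2⟩
  · have h3 : ∀ w, α (c * w) = c * α w := fun w => by rw [← h1, h2]
    refine ⟨by rw [h3, h3], ?_⟩
    rw [h1, h1, h1, h1, h3, h3]
  · have h3 : ∀ v, c * α (c * v) = α v := fun v => by rw [← h1, h2]
    have h4 : ∀ v, α (c⁻¹ * v) = c * α v := fun v => by
      have := h3 (c⁻¹ * v)
      rw [mul_inv_cancel_left₀ hc] at this
      exact this.symm
    have h5 : ∀ v, α (c * v) = c⁻¹ * α v := fun v => by rw [← h3 v, inv_mul_cancel_left₀ hc]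
    refine ⟨by rw [h5, h4], ?_⟩
    rw [h2, h1, h1 w, h1, h3]

theorem alg_sw {E : Type*} [Field E] {c : E} (hc : c ≠ 0) {α β : E → E}
    (h : ((∀ w, α w = β w) ∧ (∀ w, α w = c * β (c * w))) ∨ ((∀ w, α w = c * β w) ∧ (∀ w, α w = β (c * w)))) (w : E) :
    β (α (c * w)) = c * β (α w) ∧ α (β (c * w)) = c * α (β w) := by
  rcases h with ⟨h1, h2⟩ | ⟨h1, h2⟩
  · have h3 : ∀ v, c * α (c * v) = α v := fun v => by rw [h1, ← h2]
    have h4 : ∀ v, α (c⁻¹ * v) = c * α v := fun v => by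
      have := h3 (c⁻¹ * v)
      rw [mul_inv_cancel_left₀ hc] at this
      exact this.symm
    have h5 : ∀ v, α (c * v) = c⁻¹ * α v := fun v => by rw [← h3 v, inv_mul_cancel_left₀ hc]
    have h6 : ∀ v, β v = α v := fun v => (h1 v).symm
    refine ⟨?_, ?_⟩
    · rw [h6, h6, h5, h4]
    · rw [h6, h6, h5, h4]
  · have h3 : ∀ v, β (c * v) = c * β v := fun v => by rw [← h2, h1]
    have h4 : ∀ v, α (c * v) = c * α v := fun v => by rw [h1, h3, h1]
    refine ⟨?_, ?_⟩
    · rw [h4, h3]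
    · rw [h3, h4]

variable {F : Type*} [Field F] {E : Type*} [Field E] [Algebra F E] {ι : Type*} [DecidableEq ι]

/-- `x` maps the two axes to the graphs of `1` and `c`, and fixes the others. -/
structure XMap (x : (ι → E) ≃ₗ[F] (ι → E)) (i0 i1 : ι) (c d : E) : Prop where
  ne : i0 ≠ i1
  c0 : c ≠ 0
  d0 : d ≠ 0
  x0 : ∀ w, x (Pi.single i0 w) = Pi.single i0 w + Pi.single i1 w
  x1 : ∀ w, x (Pi.single i1 w) = Pi.single i0 (d * w) + Pi.single i1 (c * (d * w))
  xj : ∀ j, j ≠ i0 → j ≠ i1 → ∀ w, x (Pi.single j w) = Pi.single j w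

namespace XMap

variable {x : (ι → E) ≃ₗ[F] (ι → E)} {i0 i1 : ι} {c d : E} (hx : XMap x i0 i1 c d)

include hx

theorem supp {p r k : ι} {a b w : E} (hpr : p ≠ r) (ha : a ≠ 0) (hb : b ≠ 0)
    (e : Pi.single p a + Pi.single r b = x (Pi.single k w)) :
    (k = i0 ∨ k = i1) ∧ (p = i0 ∨ p = i1) ∧ (r = i0 ∨ r = i1) := by
  have ep := congrFun e p
  have er := congrFun e r
  rw [Pi.add_apply, Pi.single_eq_same, Pi.single_eq_of_ne hpr, add_zero] at ep
  rw [Pi.add_apply, Pi.single_eq_same, Pi.single_eq_of_ne hpr.symm, zero_add] at er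
  have hk : k = i0 ∨ k = i1 := by
    by_contra hk
    push Not at hk
    rw [hx.xj k hk.1 hk.2] at ep er
    have h1 : p = k := by
      by_contra h1
      rw [Pi.single_eq_of_ne h1] at ep
      exact ha ep
    have h2 : r = k := by
      by_contra h2
      rw [Pi.single_eq_of_ne h2] at er
      exact hb er
    exact hpr (h1.trans h2.symm)
  have hz : ∀ j, j ≠ i0 → j ≠ i1 → x (Pi.single k w) j = 0 := by
    intro j h0 h1
    rcases hk with rfl | rfl
    · rw [hx.x0, Pi.add_apply, Pi.single_eq_of_ne h0, Pi.single_eq_of_ne h1, add_zero]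
    · rw [hx.x1, Pi.add_apply, Pi.single_eq_of_ne h0, Pi.single_eq_of_ne h1, add_zero]
  refine ⟨hk, ?_, ?_⟩
  · by_contra h1
    push Not at h1
    rw [hz p h1.1 h1.2] at ep
    exact ha ep
  · by_contra h1
    push Not at h1
    rw [hz r h1.1 h1.2] at er
    exact hb er

theorem ev0 (w : E) : x (Pi.single i0 w) i1 = x (Pi.single i0 w) i0 := by
  rw [hx.x0, Pi.add_apply, Pi.add_apply, Pi.single_eq_same, Pi.single_eq_same, Pi.single_eq_of_ne hx.ne,
    Pi.single_eq_of_ne hx.ne.symm, add_zero, zero_add]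

theorem ev1 (w : E) : x (Pi.single i1 w) i1 = c * x (Pi.single i1 w) i0 := by
  rw [hx.x1, Pi.add_apply, Pi.add_apply, Pi.single_eq_same, Pi.single_eq_same, Pi.single_eq_of_ne hx.ne,
    Pi.single_eq_of_ne hx.ne.symm, add_zero, zero_add]

/-- **the key computation** -/
theorem key [Finite ι] {s g : (ι → E) ≃ₗ[F] (ι → E)} {σ τ : Equiv.Perm ι} (hs : Ax s σ)
    (hτ : ∀ i w, ∃ w', s (x (Pi.single i w)) = x (Pi.single (τ i) w'))
    (hg0 : ∀ w, g (Pi.single i0 w) = Pi.single i0 (c * w)) (hg1 : ∀ w, g (Pi.single i1 w) = Pi.single i1 (c⁻¹ * w))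
    (hgj : ∀ j, j ≠ i0 → j ≠ i1 → ∀ w, g (Pi.single j w) = Pi.single j w) (u : ι → E) :
    g (s (s u)) = s (s (g u)) := by
  have hc := hx.c0
  have hd := hx.d0
  have hne := hx.ne
  -- the maps on the axes
  obtain ⟨α, hα⟩ : ∃ α : E → E, ∀ w, s (Pi.single i0 w) = Pi.single (σ i0) (α w) := by
    choose f hf using hs
    exact ⟨f i0, hf i0⟩
  obtain ⟨β, hβ⟩ : ∃ β : E → E, ∀ w, s (Pi.single i1 w) = Pi.single (σ i1) (β w) := by
    choose f hf using hs
    exact ⟨f i1, hf i1⟩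
  have hα0 : ∀ w, w ≠ 0 → α w ≠ 0 := by
    intro w hw e
    have h1 := hα w
    rw [e, Pi.single_zero, LinearEquiv.map_eq_zero_iff, Pi.single_eq_zero_iff] at h1
    exact hw h1
  have hβ0 : ∀ w, w ≠ 0 → β w ≠ 0 := by
    intro w hw e
    have h1 := hβ w
    rw [e, Pi.single_zero, LinearEquiv.map_eq_zero_iff, Pi.single_eq_zero_iff] at h1
    exact hw h1
  have e0 : ∀ w, s (x (Pi.single i0 w)) = Pi.single (σ i0) (α w) + Pi.single (σ i1) (β w) := fun w => by
    rw [hx.x0, map_add, hα, hβ]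
  have e1 : ∀ w, s (x (Pi.single i1 (d⁻¹ * w))) = Pi.single (σ i0) (α w) + Pi.single (σ i1) (β (c * w)) := fun w => by
    rw [hx.x1, map_add, hα, hβ, mul_inv_cancel_left₀ hd]
  have hσne : σ i0 ≠ σ i1 := fun e => hne (σ.injective e)
  have hτne : τ i0 ≠ τ i1 := fun e => hne (τ.injective e)
  have t0 : (τ i0 = i0 ∨ τ i0 = i1) ∧ (σ i0 = i0 ∨ σ i0 = i1) ∧ (σ i1 = i0 ∨ σ i1 = i1) := by
    obtain ⟨w', hw'⟩ := hτ i0 1
    rw [e0] at hw'
    exact hx.supp hσne (hα0 1 one_ne_zero) (hβ0 1 one_ne_zero) hw'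
  have t1 : τ i1 = i0 ∨ τ i1 = i1 := by
    obtain ⟨w', hw'⟩ := hτ i1 (d⁻¹ * 1)
    rw [e1] at hw'
    exact (hx.supp hσne (hα0 1 one_ne_zero) (hβ0 _ (mul_ne_zero hc one_ne_zero)) hw').1
  obtain ⟨t0, s0, s1⟩ := t0
  have hτ' : (τ i0 = i0 ∧ τ i1 = i1) ∨ (τ i0 = i1 ∧ τ i1 = i0) := by
    rcases t0 with a | a <;> rcases t1 with b | b
    · exact absurd (a.trans b.symm) hτne
    · exact Or.inl ⟨a, b⟩
    · exact Or.inr ⟨a, b⟩
    · exact absurd (a.trans b.symm) hτne
  have hσ' : (σ i0 = i0 ∧ σ i1 = i1) ∨ (σ i0 = i1 ∧ σ i1 = i0) := by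
    rcases s0 with a | a <;> rcases s1 with b | b
    · exact absurd (a.trans b.symm) hσne
    · exact Or.inl ⟨a, b⟩
    · exact Or.inr ⟨a, b⟩
    · exact absurd (a.trans b.symm) hσne
  -- the equations
  have q0 : (τ i0 = i0 → ∀ w, s (x (Pi.single i0 w)) i1 = s (x (Pi.single i0 w)) i0) ∧
      (τ i0 = i1 → ∀ w, s (x (Pi.single i0 w)) i1 = c * s (x (Pi.single i0 w)) i0) := by
    constructor
    · intro e w
      obtain ⟨w', hw'⟩ := hτ i0 w
      rw [hw', e, hx.ev0]
    · intro e w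
      obtain ⟨w', hw'⟩ := hτ i0 w
      rw [hw', e, hx.ev1]
  have q1 : (τ i1 = i0 → ∀ w, s (x (Pi.single i1 w)) i1 = s (x (Pi.single i1 w)) i0) ∧
      (τ i1 = i1 → ∀ w, s (x (Pi.single i1 w)) i1 = c * s (x (Pi.single i1 w)) i0) := by
    constructor
    · intro e w
      obtain ⟨w', hw'⟩ := hτ i1 w
      rw [hw', e, hx.ev0]
    · intro e w
      obtain ⟨w', hw'⟩ := hτ i1 w
      rw [hw', e, hx.ev1]
  have hoff : ∀ j, j ≠ i0 → j ≠ i1 → σ j ≠ i0 ∧ σ j ≠ i1 := by
    intro j h0 h1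
    rcases hσ' with ⟨a, b⟩ | ⟨a, b⟩
    · exact ⟨fun e => h0 (σ.injective (e.trans a.symm)), fun e => h1 (σ.injective (e.trans b.symm))⟩
    · exact ⟨fun e => h1 (σ.injective (e.trans b.symm)), fun e => h0 (σ.injective (e.trans a.symm))⟩
  have hid : σ i0 = i0 ∧ σ i1 = i1 → ((∀ w, β w = α w) ∧ (∀ w, β (c * w) = c * α w)) ∨
      ((∀ w, β w = c * α w) ∧ (∀ w, β (c * w) = α w)) := by
    rintro ⟨a, b⟩
    rcases hτ' with ⟨p, q⟩ | ⟨p, q⟩
    · left
      constructor
      · intro w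
        have := q0.1 p w
        rw [e0, a, b, Pi.add_apply, Pi.add_apply, Pi.single_eq_same, Pi.single_eq_same, Pi.single_eq_of_ne hne,
          Pi.single_eq_of_ne hne.symm, zero_add, add_zero] at this
        exact this
      · intro w
        have := q1.2 q (d⁻¹ * w)
        rw [e1, a, b, Pi.add_apply, Pi.add_apply, Pi.single_eq_same, Pi.single_eq_same, Pi.single_eq_of_ne hne,
          Pi.single_eq_of_ne hne.symm, zero_add, add_zero] at this
        exact this
    · right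
      constructor
      · intro w
        have := q0.2 p w
        rw [e0, a, b, Pi.add_apply, Pi.add_apply, Pi.single_eq_same, Pi.single_eq_same, Pi.single_eq_of_ne hne,
          Pi.single_eq_of_ne hne.symm, zero_add, add_zero] at this
        exact this
      · intro w
        have := q1.1 q (d⁻¹ * w)
        rw [e1, a, b, Pi.add_apply, Pi.add_apply, Pi.single_eq_same, Pi.single_eq_same, Pi.single_eq_of_ne hne,
          Pi.single_eq_of_ne hne.symm, zero_add, add_zero] at this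
        exact this
  have hsw : σ i0 = i1 ∧ σ i1 = i0 → ((∀ w, α w = β w) ∧ (∀ w, α w = c * β (c * w))) ∨
      ((∀ w, α w = c * β w) ∧ (∀ w, α w = β (c * w))) := by
    rintro ⟨a, b⟩
    rcases hτ' with ⟨p, q⟩ | ⟨p, q⟩
    · left
      constructor
      · intro w
        have := q0.1 p w
        rw [e0, a, b, Pi.add_apply, Pi.add_apply, Pi.single_eq_same, Pi.single_eq_same, Pi.single_eq_of_ne hne,
          Pi.single_eq_of_ne hne.symm, zero_add, add_zero] at this
        exact this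
      · intro w
        have := q1.2 q (d⁻¹ * w)
        rw [e1, a, b, Pi.add_apply, Pi.add_apply, Pi.single_eq_same, Pi.single_eq_same, Pi.single_eq_of_ne hne,
          Pi.single_eq_of_ne hne.symm, zero_add, add_zero] at this
        exact this
    · right
      constructor
      · intro w
        have := q0.2 p w
        rw [e0, a, b, Pi.add_apply, Pi.add_apply, Pi.single_eq_same, Pi.single_eq_same, Pi.single_eq_of_ne hne,
          Pi.single_eq_of_ne hne.symm, zero_add, add_zero] at this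
        exact this
      · intro w
        have := q1.1 q (d⁻¹ * w)
        rw [e1, a, b, Pi.add_apply, Pi.add_apply, Pi.single_eq_same, Pi.single_eq_same, Pi.single_eq_of_ne hne,
          Pi.single_eq_of_ne hne.symm, zero_add, add_zero] at this
        exact this
  -- the two maps agree on the axes
  have main : ((g : (ι → E) →ₗ[F] (ι → E)).comp ((s : (ι → E) →ₗ[F] (ι → E)).comp (s : (ι → E) →ₗ[F] (ι → E)))) =
      (s : (ι → E) →ₗ[F] (ι → E)).comp ((s : (ι → E) →ₗ[F] (ι → E)).comp (g : (ι → E) →ₗ[F] (ι → E))) := by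
    refine LinearMap.pi_ext fun j w => ?_
    show g (s (s (Pi.single j w))) = s (s (g (Pi.single j w)))
    by_cases hj0 : j = i0
    · subst hj0
      rcases hσ' with ⟨a, b⟩ | ⟨a, b⟩
      · rw [hα, a, hα, a, hg0, hg0, hα, a, hα, a, (alg_id hc (hid ⟨a, b⟩) w).1]
      · rw [hα, a, hβ, b, hg0, hg0, hα, a, hβ, b, (alg_sw hc (hsw ⟨a, b⟩) w).1]
    · by_cases hj1 : j = i1
      · subst hj1
        rcases hσ' with ⟨a, b⟩ | ⟨a, b⟩
        · have h1 := (alg_id hc (hid ⟨a, b⟩) (c⁻¹ * w)).2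
          rw [mul_inv_cancel_left₀ hc] at h1
          rw [hβ, b, hβ, b, hg1, hg1, hβ, b, hβ, b, h1, inv_mul_cancel_left₀ hc]
        · have h1 := (alg_sw hc (hsw ⟨a, b⟩) (c⁻¹ * w)).2
          rw [mul_inv_cancel_left₀ hc] at h1
          rw [hβ, b, hα, a, hg1, hg1, hβ, b, hα, a, h1, inv_mul_cancel_left₀ hc]
      · obtain ⟨w1, h1⟩ := hs j w
        obtain ⟨h2, h3⟩ := hoff j hj0 hj1
        obtain ⟨w2, h4⟩ := hs (σ j) w1
        obtain ⟨h5, h6⟩ := hoff _ h2 h3
        rw [hgj j hj0 hj1, h1, h4, hgj _ h5 h6]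
  exact congrArg (fun f : (ι → E) →ₗ[F] (ι → E) => f u) main

/-- `g = diag(c, c⁻¹, 1, …)` does not permute the images of the axes -/
theorem not_perm {g : (ι → E) ≃ₗ[F] (ι → E)} {τ : Equiv.Perm ι} (hc1 : c ≠ 1) (hcc : c * c ≠ 1)
    (hg0 : ∀ w, g (Pi.single i0 w) = Pi.single i0 (c * w)) (hg1 : ∀ w, g (Pi.single i1 w) = Pi.single i1 (c⁻¹ * w))
    (hτ : ∀ i w, ∃ w', g (x (Pi.single i w)) = x (Pi.single (τ i) w')) : False := by
  have hc := hx.c0
  have hd := hx.d0
  have hne := hx.ne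
  have e1 : g (x (Pi.single i1 (d⁻¹ * 1))) = Pi.single i0 c + Pi.single i1 1 := by
    rw [hx.x1, map_add, hg0, hg1, mul_inv_cancel_left₀ hd, mul_one, inv_mul_cancel₀ hc]
  obtain ⟨w', hw'⟩ := hτ i1 (d⁻¹ * 1)
  rw [e1] at hw'
  have v0 := congrFun hw' i0
  have v1 := congrFun hw' i1
  rw [Pi.add_apply, Pi.single_eq_same, Pi.single_eq_of_ne hne, add_zero] at v0
  rw [Pi.add_apply, Pi.single_eq_same, Pi.single_eq_of_ne hne.symm, zero_add] at v1
  rcases (hx.supp hne hc one_ne_zero hw').1 with e | e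
  · rw [e] at v0 v1
    rw [hx.ev0, ← v0] at v1
    exact hc1 v1.symm
  · rw [e] at v0 v1
    rw [hx.ev1, ← v0] at v1
    exact hcc v1.symm

end XMap

end Cfsg.Agent.H173.EP
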