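import Mathlib

/-!
# S3499: linear maps on `ι → E` (helper173)

`Ax g σ`: `g` maps the `i`-th axis into the `σ i`-th axis; `unip N`: the unipotent map `1 + N`, `N² = 0`;
`dg f`: diagonal maps with entries in `Eˣ`; all over a subfield `F` of `E`.
-/

set_option autoImplicit false

namespace Cfsg.Agent.H173.EP

variable {F : Type*} [Field F]

section unip

variable {U : Type*} [AddCommGroup U] [Module F U]

/-- the map `1 + N` with `N² = 0` -/
def unip (N : U →ₗ[F] U) (hN : ∀ u, N (N u) = 0) : U ≃ₗ[F] U :=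
  { (LinearMap.id + N : U →ₗ[F] U) with
    invFun := fun u => u - N u
    left_inv := fun u => by
      show (u + N u) - N (u + N u) = u
      rw [map_add, hN, add_zero, add_sub_cancel_right]
    right_inv := fun u => by
      show (u - N u) + N (u - N u) = u
      rw [map_sub, hN, sub_zero, sub_add_cancel] }

theorem unip_apply (N : U →ₗ[F] U) (hN : ∀ u, N (N u) = 0) (u : U) : unip N hN u = u + N u := rfl

theorem unip_pow (N : U →ₗ[F] U) (hN : ∀ u, N (N u) = 0) (k : ℕ) (u : U) : (unip N hN ^ k) u = u + (k : F) • N u := by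
  induction k generalizing u with
  | zero => rw [pow_zero, Nat.cast_zero, zero_smul, add_zero]; rfl
  | succ k ih =>
    rw [pow_succ, LinearEquiv.mul_apply, ih, unip_apply, map_add, hN, add_zero, Nat.cast_succ, add_smul, one_smul]
    abel

theorem det_unip [Finite F] (N : U →ₗ[F] U) (hN : ∀ u, N (N u) = 0) : LinearEquiv.det (unip N hN) = 1 := by
  obtain ⟨p, hp⟩ := CharP.exists F
  have hpp : p.Prime := CharP.char_is_prime F p
  have : Fact p.Prime := ⟨hpp⟩
  have h1 : unip N hN ^ p = 1 := by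
    ext u
    rw [unip_pow, CharP.cast_eq_zero, zero_smul, add_zero]
    rfl
  have h2 : LinearEquiv.det (unip N hN) ^ p = 1 := by rw [← map_pow, h1, map_one]
  have h3 : ((LinearEquiv.det (unip N hN) : Fˣ) : F) ^ p = 1 := by rw [← Units.val_pow_eq_pow_val, h2, Units.val_one]
  apply Units.ext
  apply frobenius_inj F p
  rw [frobenius_def, h3, Units.val_one, map_one]

end unip

section ax

variable {E : Type*} [Field E] [Algebra F E] {ι : Type*} [DecidableEq ι]

/-- `g` maps the `i`-th axis into the `σ i`-th axis -/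
def Ax (g : (ι → E) ≃ₗ[F] (ι → E)) (σ : Equiv.Perm ι) : Prop := ∀ i w, ∃ w', g (Pi.single i w) = Pi.single (σ i) w'

/-- `u_i += T(u_j)` -/
def tvN (i j : ι) (T : E →ₗ[F] E) : (ι → E) →ₗ[F] (ι → E) :=
  (LinearMap.single F (fun _ : ι => E) i).comp (T.comp (LinearMap.proj j))

theorem tvN_apply (i j : ι) (T : E →ₗ[F] E) (u : ι → E) : tvN i j T u = Pi.single i (T (u j)) := rfl

theorem tvN_sq {i j : ι} (hij : i ≠ j) (T : E →ₗ[F] E) (u : ι → E) : tvN i j T (tvN i j T u) = 0 := by
  rw [tvN_apply, tvN_apply, Pi.single_eq_of_ne hij.symm, map_zero, Pi.single_zero]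

/-- `u_i += T(u_j)` -/
def tv {i j : ι} (hij : i ≠ j) (T : E →ₗ[F] E) : (ι → E) ≃ₗ[F] (ι → E) := unip (tvN i j T) (tvN_sq hij T)

theorem tv_apply {i j : ι} (hij : i ≠ j) (T : E →ₗ[F] E) (u : ι → E) : tv hij T u = u + Pi.single i (T (u j)) := rfl

/-- diagonal maps -/
def dg (f : ι → Eˣ) : (ι → E) ≃ₗ[F] (ι → E) :=
  { toFun := fun u j => f j * u j
    map_add' := fun u v => funext fun j => mul_add _ _ _
    map_smul' := fun a u => funext fun j => by
      rw [Pi.smul_apply, RingHom.id_apply, Pi.smul_apply, mul_smul_comm]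
    invFun := fun u j => ((f j)⁻¹ : Eˣ) * u j
    left_inv := fun u => funext fun j => Units.inv_mul_cancel_left (f j) (u j)
    right_inv := fun u => funext fun j => Units.mul_inv_cancel_left (f j) (u j) }

omit [DecidableEq ι] in
theorem dg_apply (f : ι → Eˣ) (u : ι → E) (j : ι) : dg (F := F) f u j = f j * u j := rfl

theorem dg_single (f : ι → Eˣ) (i : ι) (w : E) : dg (F := F) f (Pi.single i w) = Pi.single i (f i * w) := by
  funext j
  rw [dg_apply]
  by_cases hj : j = i
  · subst hj
    rw [Pi.single_eq_same, Pi.single_eq_same]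
  · rw [Pi.single_eq_of_ne hj, Pi.single_eq_of_ne hj, mul_zero]

theorem ax_dg (f : ι → Eˣ) : Ax (dg (F := F) f) 1 := fun i w => ⟨f i * w, dg_single f i w⟩

omit [DecidableEq ι] in
theorem det_dg [Fintype ι] [FiniteDimensional F E] (f : ι → Eˣ) :
    ((LinearEquiv.det (dg (F := F) f) : Fˣ) : F) = ∏ i, Algebra.norm F (f i : E) := by
  rw [LinearEquiv.coe_det]
  exact LinearMap.det_pi (fun i => LinearMap.mul F E (f i : E))

end ax

/-! ### the choice of `c` and `a` -/

/-- a field extension of degree `≥ 2` of finite fields: `c` and `a` -/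
theorem exists_ca (F E : Type*) [Field F] [Field E] [Algebra F E] [Finite F] [Finite E]
    (h2 : 2 ≤ Module.finrank F E) :
    ∃ c a : E, c ≠ 0 ∧ c ≠ 1 ∧ c * c ≠ 1 ∧ a ≠ 0 ∧ Algebra.norm F a ^ 2 = 1 ∧ ∀ l : F, a * a ≠ algebraMap F E l := by
  have := Fintype.ofFinite F
  have := Fintype.ofFinite E
  obtain ⟨c, hc⟩ := IsCyclic.exists_ofOrder_eq_natCard (α := Eˣ)
  set q := Fintype.card F with hq
  have hq2 : 2 ≤ q := Fintype.one_lt_card
  have hcard : Fintype.card E = q ^ Module.finrank F E := Module.card_eq_pow_finrank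
  have hE : q ^ 2 ≤ Fintype.card E := by
    rw [hcard]
    exact Nat.pow_le_pow_right (by omega) h2
  have hcard' : Nat.card Eˣ = Fintype.card E - 1 := by
    classical
    rw [Nat.card_eq_fintype_card, Fintype.card_units]
  rw [hcard'] at hc
  have hq4 : 2 ^ 2 ≤ q ^ 2 := Nat.pow_le_pow_left hq2 2
  have hsq : IsSquare ((c : E) ^ (q - 1)) := by
    by_cases hch : ringChar E = 2
    · exact FiniteField.isSquare_of_char_two hch _
    · have h3 : ringChar F ≠ 2 := by
        intro e
        apply hch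
        rw [← e]
        exact (Algebra.ringChar_eq F E).symm
      have h4 := FiniteField.odd_card_of_char_ne_two h3
      rw [← hq] at h4
      obtain ⟨k, hk⟩ := (Nat.even_iff.2 (by omega) : Even (q - 1))
      exact ⟨(c : E) ^ k, by rw [← pow_add, hk]⟩
  obtain ⟨a, ha⟩ := hsq
  have ha0 : a ≠ 0 := by
    rintro rfl
    rw [mul_zero] at ha
    exact pow_ne_zero _ c.ne_zero ha
  refine ⟨c, a, c.ne_zero, ?_, ?_, ha0, ?_, ?_⟩
  · intro e
    have h1 : c = 1 := Units.ext e
    rw [h1, orderOf_one] at hc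
    omega
  · intro e
    have h1 : c ^ 2 = 1 := by
      apply Units.ext
      rw [pow_two, Units.val_mul, e, Units.val_one]
    have h3 := orderOf_dvd_of_pow_eq_one h1
    rw [hc] at h3
    have h4 := Nat.le_of_dvd (by norm_num) h3
    omega
  · rw [pow_two, ← map_mul, ← ha, map_pow]
    exact FiniteField.pow_card_sub_one_eq_one _ ((Algebra.norm_ne_zero_iff).2 c.ne_zero)
  · intro l hl
    rw [← ha] at hl
    have hl0 : l ≠ 0 := by
      rintro rfl
      rw [map_zero] at hl
      exact pow_ne_zero _ c.ne_zero hl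
    have h1 : c ^ ((q - 1) * (q - 1)) = 1 := by
      apply Units.ext
      rw [Units.val_pow_eq_pow_val, pow_mul, hl, ← map_pow, FiniteField.pow_card_sub_one_eq_one _ hl0, map_one,
        Units.val_one]
    have h3 := orderOf_dvd_of_pow_eq_one h1
    rw [hc] at h3
    obtain ⟨r, hr⟩ : ∃ r, q = r + 2 := ⟨q - 2, by omega⟩
    have h4 := Nat.le_of_dvd (Nat.mul_pos (by omega) (by omega)) h3
    rw [hr] at h4 hE
    have e1 : r + 2 - 1 = r + 1 := by omega
    rw [e1] at h4
    have h5 : (r + 2) ^ 2 ≤ (r + 1) * (r + 1) + 1 := by omega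
    nlinarith

end Cfsg.Agent.H173.EP
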