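import Cfsg.Agent.H173.EP.WrCrit
import Cfsg.Agent.H173.EP.WrKey

/-!
# S3499: imprimitive subgroups of `SL(U)`, `U = ι → E` (helper173)
-/

set_option autoImplicit false

namespace Cfsg.Agent.H173.EP

open Subgroup Cfsg.Agent.H284

variable {F : Type*} [Field F] {E : Type*} [Field E] [Algebra F E] {ι : Type*} [DecidableEq ι]

theorem Ax.mul {g g' : (ι → E) ≃ₗ[F] (ι → E)} {σ σ' : Equiv.Perm ι} (h : Ax g σ) (h' : Ax g' σ') :
    Ax (g * g') (σ * σ') := fun i w => by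
  obtain ⟨w1, h1⟩ := h' i w
  obtain ⟨w2, h2⟩ := h (σ' i) w1
  exact ⟨w2, by rw [LinearEquiv.mul_apply, h1, h2]; rfl⟩

theorem Ax.one : Ax (1 : (ι → E) ≃ₗ[F] (ι → E)) 1 := fun _ w => ⟨w, rfl⟩

theorem Ax.inv [Finite E] {g : (ι → E) ≃ₗ[F] (ι → E)} {σ : Equiv.Perm ι} (h : Ax g σ) : Ax g⁻¹ σ⁻¹ := by
  intro i w
  choose f hf using h
  have hj : σ (σ⁻¹ i) = i := Equiv.apply_symm_apply σ i
  have hinj : Function.Injective (f (σ⁻¹ i)) := by
    intro a b hab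
    have h1 := hf (σ⁻¹ i) a
    rw [hab, ← hf (σ⁻¹ i) b] at h1
    exact Pi.single_injective _ (g.injective h1)
  obtain ⟨w0, h0⟩ := Finite.surjective_of_injective hinj w
  refine ⟨w0, ?_⟩
  have h2 := hf (σ⁻¹ i) w0
  rw [h0, hj] at h2
  rw [← h2]
  exact g.symm_apply_apply _

theorem Ax.conv {x s : (ι → E) ≃ₗ[F] (ι → E)} {τ : Equiv.Perm ι} (h : Ax (x⁻¹ * s * x) τ) (i : ι) (w : E) :
    ∃ w', s (x (Pi.single i w)) = x (Pi.single (τ i) w') := by
  obtain ⟨w', h1⟩ := h i w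
  refine ⟨w', ?_⟩
  rw [← h1, LinearEquiv.mul_apply, LinearEquiv.mul_apply]
  exact (x.apply_symm_apply _).symm

theorem single_add_ne {p r k : ι} {a b w : E} (hpr : p ≠ r) (ha : a ≠ 0) (hb : b ≠ 0)
    (e : (Pi.single p a + Pi.single r b : ι → E) = Pi.single k w) : False := by
  have ep := congrFun e p
  have er := congrFun e r
  rw [Pi.add_apply, Pi.single_eq_same, Pi.single_eq_of_ne hpr, add_zero] at ep
  rw [Pi.add_apply, Pi.single_eq_same, Pi.single_eq_of_ne hpr.symm, zero_add] at er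
  have h1 : p = k := by
    by_contra h1
    rw [Pi.single_eq_of_ne h1] at ep
    exact ha ep
  have h2 : r = k := by
    by_contra h2
    rw [Pi.single_eq_of_ne h2] at er
    exact hb er
  exact hpr (h1.trans h2.symm)

theorem tv_single_same {i j : ι} (hij : i ≠ j) (T : E →ₗ[F] E) (w : E) :
    tv hij T (Pi.single j w) = Pi.single j w + Pi.single i (T w) := by
  rw [tv_apply, Pi.single_eq_same]

theorem tv_single_ne {i j k : ι} (hij : i ≠ j) (hk : k ≠ j) (T : E →ₗ[F] E) (w : E) :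
    tv hij T (Pi.single k w) = Pi.single k w := by
  rw [tv_apply, Pi.single_eq_of_ne hk.symm, map_zero, Pi.single_zero, add_zero]

theorem eq_of_single [Finite ι] {f g : (ι → E) ≃ₗ[F] (ι → E)} (h : ∀ i w, f (Pi.single i w) = g (Pi.single i w)) :
    f = g := by
  apply LinearEquiv.toLinearMap_injective
  exact LinearMap.pi_ext h

theorem prod_mulSingle [Fintype ι] (i : ι) (a : Eˣ) :
    ∏ j, Algebra.norm F (((Pi.mulSingle i a : ι → Eˣ) j : Eˣ) : E) = Algebra.norm F (a : E) := by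
  rw [Fintype.prod_eq_single i, Pi.mulSingle_eq_same]
  intro j hj
  rw [Pi.mulSingle_eq_of_ne hj, Units.val_one, map_one]

theorem det_dg_two [Fintype ι] [FiniteDimensional F E] (i j : ι) (a b : Eˣ) :
    ((LinearEquiv.det (dg (F := F) (Pi.mulSingle i a * Pi.mulSingle j b : ι → Eˣ)) : Fˣ) : F) =
      Algebra.norm F (a : E) * Algebra.norm F (b : E) := by
  rw [det_dg]
  have e : ∀ k, Algebra.norm F (((Pi.mulSingle i a * Pi.mulSingle j b : ι → Eˣ) k : Eˣ) : E) =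
      Algebra.norm F (((Pi.mulSingle i a : ι → Eˣ) k : Eˣ) : E) *
      Algebra.norm F (((Pi.mulSingle j b : ι → Eˣ) k : Eˣ) : E) := fun k => by
    rw [Pi.mul_apply, Units.val_mul, map_mul]
  rw [Finset.prod_congr rfl (fun k _ => e k), Finset.prod_mul_distrib, prod_mulSingle, prod_mulSingle]

/-- `Q` is `SL(U)` modulo scalars, the elements of `A` permute the axes. -/
structure WM {Q : Type*} [Group Q] (A : Subgroup Q) (F E ι : Type*) [Field F] [Field E] [Algebra F E]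
    [DecidableEq ι] where
  π : (LinearEquiv.det : ((ι → E) ≃ₗ[F] (ι → E)) →* Fˣ).ker →* Q
  surj : Function.Surjective π
  ker : ∀ g, π g = 1 ↔ ∃ l : F, ∀ u, (g : (ι → E) ≃ₗ[F] (ι → E)) u = l • u
  hat : ∀ g, π g ∈ A → ∃ σ, Ax (g : (ι → E) ≃ₗ[F] (ι → E)) σ

namespace WM

variable {Q : Type*} [Group Q] {A : Subgroup Q} {Γ : Subgroup (MulAut Q)}

theorem mem_of_ax [Finite E] (W : WM A F E ι) (hA : IsCoatom A)
    {x : (LinearEquiv.det : ((ι → E) ≃ₗ[F] (ι → E)) →* Fˣ).ker} (hx : ∀ σ, ¬ Ax (x : (ι → E) ≃ₗ[F] (ι → E)) σ)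
    {g : (LinearEquiv.det : ((ι → E) ≃ₗ[F] (ι → E)) →* Fˣ).ker} {σ : Equiv.Perm ι}
    (hg : Ax (g : (ι → E) ≃ₗ[F] (ι → E)) σ) : W.π g ∈ A := by
  let P : Subgroup (LinearEquiv.det : ((ι → E) ≃ₗ[F] (ι → E)) →* Fˣ).ker :=
    { carrier := {g | ∃ σ, Ax (g : (ι → E) ≃ₗ[F] (ι → E)) σ}
      mul_mem' := fun {a b} ⟨σ, h1⟩ ⟨τ, h2⟩ => ⟨σ * τ, h1.mul h2⟩
      one_mem' := ⟨1, Ax.one⟩
      inv_mem' := fun {a} ⟨σ, h1⟩ => ⟨σ⁻¹, h1.inv⟩ }
  have h1 : A ≤ P.map W.π := by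
    intro q hq
    obtain ⟨g, rfl⟩ := W.surj q
    exact ⟨g, W.hat g hq, rfl⟩
  have h2 : P.map W.π = A := by
    by_contra hne
    have h3 := hA.2 _ (lt_of_le_of_ne h1 (Ne.symm hne))
    have h4 : W.π x ∈ P.map W.π := by rw [h3]; exact mem_top _
    obtain ⟨p, ⟨σ, hσ⟩, hp⟩ := h4
    have h5 : W.π (p⁻¹ * x) = 1 := by rw [map_mul, map_inv, hp, inv_mul_cancel]
    obtain ⟨l, hl⟩ := (W.ker _).1 h5
    apply hx σ
    intro i w
    obtain ⟨w', hw'⟩ := hσ i (l • w)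
    refine ⟨w', ?_⟩
    have h6 := hl (Pi.single i w)
    rw [← hw', Pi.single_smul, ← h6]
    exact ((p : (ι → E) ≃ₗ[F] (ι → E)).apply_symm_apply _).symm
  have h3 : W.π g ∈ P.map W.π := ⟨g, ⟨σ, hg⟩, rfl⟩
  exact h2.le h3

/-- **`mm ≥ 2`** -/
theorem case_I [Finite E] [Fintype ι] [Finite F] (W : WM A F E ι) (h : EPT A Γ) {i0 i1 : ι} (h01 : i0 ≠ i1) {c a : E}
    (hc0 : c ≠ 0) (hc1 : c ≠ 1) (hcc : c * c ≠ 1) (ha0 : a ≠ 0) (haN : Algebra.norm F a ^ 2 = 1)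
    (hal : ∀ l : F, a * a ≠ algebraMap F E l) : False := by
  have hFD : FiniteDimensional F E := Module.Finite.of_finite
  have hd : (c - 1) ≠ 0 := sub_ne_zero.2 hc1
  obtain ⟨d, hd0, hcd⟩ : ∃ d : E, d ≠ 0 ∧ c * d = 1 + d := by
    refine ⟨(c - 1)⁻¹, inv_ne_zero hd, ?_⟩
    have h1 : (c - 1) * (c - 1)⁻¹ = 1 := mul_inv_cancel₀ hd
    linear_combination h1
  let x : (ι → E) ≃ₗ[F] (ι → E) := tv h01.symm LinearMap.id * tv h01 (LinearMap.mulLeft F d)
  have hxd : LinearEquiv.det x = 1 := by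
    show LinearEquiv.det (tv h01.symm LinearMap.id * tv h01 (LinearMap.mulLeft F d)) = 1
    rw [map_mul, tv, tv, det_unip, det_unip, mul_one]
  have hX : XMap x i0 i1 c d := by
    refine ⟨h01, hc0, hd0, fun w => ?_, fun w => ?_, fun j hj0 hj1 w => ?_⟩
    · show tv h01.symm LinearMap.id (tv h01 (LinearMap.mulLeft F d) (Pi.single i0 w)) = _
      rw [tv_single_ne h01 h01, tv_single_same]
      rfl
    · show tv h01.symm LinearMap.id (tv h01 (LinearMap.mulLeft F d) (Pi.single i1 w)) = _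
      rw [tv_single_same, map_add, tv_single_ne h01.symm h01.symm, tv_single_same]
      have e1 : c * (d * w) = w + d * w := by rw [← mul_assoc, hcd]; ring
      rw [e1, Pi.single_add]
      show (Pi.single i1 w + (Pi.single i0 (d * w) + Pi.single i1 (d * w)) : ι → E) = _
      abel
    · show tv h01.symm LinearMap.id (tv h01 (LinearMap.mulLeft F d) (Pi.single j w)) = _
      rw [tv_single_ne h01 hj1, tv_single_ne h01.symm hj0]
  have hxσ : ∀ σ, ¬ Ax x σ := by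
    intro σ hσ
    obtain ⟨w', hw'⟩ := hσ i0 1
    rw [hX.x0] at hw'
    exact single_add_ne h01 one_ne_zero one_ne_zero hw'
  -- the elements `g` and `s`
  let c' : Eˣ := Units.mk0 c hc0
  let a' : Eˣ := Units.mk0 a ha0
  let g : (ι → E) ≃ₗ[F] (ι → E) := dg (Pi.mulSingle i0 c' * Pi.mulSingle i1 c'⁻¹ : ι → Eˣ)
  let s : (ι → E) ≃ₗ[F] (ι → E) := dg (Pi.mulSingle i0 a' * Pi.mulSingle i1 a' : ι → Eˣ)
  have hgd : LinearEquiv.det g = 1 := by
    apply Units.ext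
    show ((LinearEquiv.det (dg (Pi.mulSingle i0 c' * Pi.mulSingle i1 c'⁻¹ : ι → Eˣ)) : Fˣ) : F) = 1
    rw [det_dg_two, ← map_mul, Units.mul_inv, map_one]
  have hsd : LinearEquiv.det s = 1 := by
    apply Units.ext
    show ((LinearEquiv.det (dg (Pi.mulSingle i0 a' * Pi.mulSingle i1 a' : ι → Eˣ)) : Fˣ) : F) = 1
    rw [det_dg_two, ← pow_two]
    exact haN
  have hg0 : ∀ w, g (Pi.single i0 w) = Pi.single i0 (c * w) := fun w => by
    show dg (Pi.mulSingle i0 c' * Pi.mulSingle i1 c'⁻¹ : ι → Eˣ) (Pi.single i0 w) = _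
    rw [dg_single, Pi.mul_apply, Pi.mulSingle_eq_same, Pi.mulSingle_eq_of_ne h01, mul_one]
    rfl
  have hg1 : ∀ w, g (Pi.single i1 w) = Pi.single i1 (c⁻¹ * w) := fun w => by
    show dg (Pi.mulSingle i0 c' * Pi.mulSingle i1 c'⁻¹ : ι → Eˣ) (Pi.single i1 w) = _
    rw [dg_single, Pi.mul_apply, Pi.mulSingle_eq_same, Pi.mulSingle_eq_of_ne h01.symm, one_mul,
      Units.val_inv_eq_inv_val]
    rfl
  have hgj : ∀ j, j ≠ i0 → j ≠ i1 → ∀ w, g (Pi.single j w) = Pi.single j w := fun j hj0 hj1 w => by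
    show dg (Pi.mulSingle i0 c' * Pi.mulSingle i1 c'⁻¹ : ι → Eˣ) (Pi.single j w) = _
    rw [dg_single, Pi.mul_apply, Pi.mulSingle_eq_of_ne hj0, Pi.mulSingle_eq_of_ne hj1, one_mul, Units.val_one, one_mul]
  have hs0 : ∀ w, s (Pi.single i0 w) = Pi.single i0 (a * w) := fun w => by
    show dg (Pi.mulSingle i0 a' * Pi.mulSingle i1 a' : ι → Eˣ) (Pi.single i0 w) = _
    rw [dg_single, Pi.mul_apply, Pi.mulSingle_eq_same, Pi.mulSingle_eq_of_ne h01, mul_one]
    rfl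
  have hs1 : ∀ w, s (Pi.single i1 w) = Pi.single i1 (a * w) := fun w => by
    show dg (Pi.mulSingle i0 a' * Pi.mulSingle i1 a' : ι → Eˣ) (Pi.single i1 w) = _
    rw [dg_single, Pi.mul_apply, Pi.mulSingle_eq_same, Pi.mulSingle_eq_of_ne h01.symm, one_mul]
    rfl
  have hsj : ∀ j, j ≠ i0 → j ≠ i1 → ∀ w, s (Pi.single j w) = Pi.single j w := fun j hj0 hj1 w => by
    show dg (Pi.mulSingle i0 a' * Pi.mulSingle i1 a' : ι → Eˣ) (Pi.single j w) = _
    rw [dg_single, Pi.mul_apply, Pi.mulSingle_eq_of_ne hj0, Pi.mulSingle_eq_of_ne hj1, one_mul, Units.val_one, one_mul]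
  have hsx : s * x = x * s := by
    refine eq_of_single fun j w => ?_
    show s (x (Pi.single j w)) = x (s (Pi.single j w))
    by_cases hj0 : j = i0
    · subst hj0
      rw [hX.x0, map_add, hs0, hs1, hX.x0]
    · by_cases hj1 : j = i1
      · subst hj1
        rw [hX.x1, map_add, hs0, hs1, hs1, hX.x1]
        congr 2 <;> ring
      · rw [hX.xj j hj0 hj1, hsj j hj0 hj1, hX.xj j hj0 hj1]
  let X : (LinearEquiv.det : ((ι → E) ≃ₗ[F] (ι → E)) →* Fˣ).ker := ⟨x, hxd⟩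
  let G : (LinearEquiv.det : ((ι → E) ≃ₗ[F] (ι → E)) →* Fˣ).ker := ⟨g, hgd⟩
  let S : (LinearEquiv.det : ((ι → E) ≃ₗ[F] (ι → E)) →* Fˣ).ker := ⟨s, hsd⟩
  have hXA : W.π X ∉ A := fun e => by
    obtain ⟨σ, hσ⟩ := W.hat X e
    exact hxσ σ hσ
  have hax : ∀ g : (LinearEquiv.det : ((ι → E) ≃ₗ[F] (ι → E)) →* Fˣ).ker, ∀ σ,
      Ax (g : (ι → E) ≃ₗ[F] (ι → E)) σ → W.π g ∈ A := fun g σ hg => W.mem_of_ax h.max (x := X) hxσ hg
  have hGA : W.π G ∈ A := hax G 1 (ax_dg _)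
  have hSA : W.π S ∈ A := hax S 1 (ax_dg _)
  have hkill := kill_sq h hXA (s := W.π S) ?_ ?_ hGA ?_
  · have h1 : W.π (X⁻¹ * G * X) ∈ A := by
      rw [map_mul, map_mul, map_inv]
      exact mem_cj.1 hkill
    obtain ⟨τ, hτ⟩ := W.hat _ h1
    exact hX.not_perm hc1 hcc hg0 hg1 hτ.conv
  · refine ⟨hSA, mem_cj.2 ?_⟩
    have e1 : X⁻¹ * S * X = S := by
      rw [mul_assoc, inv_mul_eq_iff_eq_mul]
      exact Subtype.ext hsx
    rw [← map_inv, ← map_mul, ← map_mul, e1]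
    exact hSA
  · intro e
    rw [← map_mul] at e
    obtain ⟨l, hl⟩ := (W.ker _).1 e
    have h1 : s (s (Pi.single i0 1)) = l • Pi.single i0 1 := hl (Pi.single i0 1)
    rw [hs0, hs0, mul_one, ← Pi.single_smul, Algebra.smul_def, mul_one] at h1
    exact hal l (Pi.single_injective _ h1)
  · rintro q ⟨hq1, hq2⟩
    obtain ⟨y, rfl⟩ := W.surj q
    have h1 : W.π (X⁻¹ * y * X) ∈ A := by
      rw [map_mul, map_mul, map_inv]
      exact mem_cj.1 hq2
    obtain ⟨σ, hσ⟩ := W.hat _ hq1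
    obtain ⟨τ, hτ⟩ := W.hat _ h1
    rw [← map_mul, ← map_mul, ← map_mul]
    congr 1
    apply Subtype.ext
    apply LinearEquiv.ext
    intro u
    exact hX.key hσ hτ.conv hg0 hg1 hgj u

/-- **`mm = 1`, `q ≥ 3`** -/
theorem case_II [Finite Q] [Fintype ι] [Finite F] (W : WM A F F ι) (h : EPT A Γ) {i0 i1 i2 : ι} (h01 : i0 ≠ i1)
    (h02 : i0 ≠ i2) (h12 : i1 ≠ i2) {l : F} (hl0 : l ≠ 0)
    (hl : l * l * l ≠ 1 ∨ (l ≠ 1 ∧ ∃ i3, i3 ≠ i0 ∧ i3 ≠ i1 ∧ i3 ≠ i2)) : False := by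
  let l' : Fˣ := Units.mk0 l hl0
  let x : (ι → F) ≃ₗ[F] (ι → F) := tv h01 LinearMap.id
  have hxd : LinearEquiv.det x = 1 := det_unip _ _
  have hx1 : ∀ w, x (Pi.single i1 w) = Pi.single i1 w + Pi.single i0 w := fun w => tv_single_same h01 _ w
  have hxj : ∀ j, j ≠ i1 → ∀ w, x (Pi.single j w) = Pi.single j w := fun j hj w => tv_single_ne h01 hj _ w
  have hxσ : ∀ σ, ¬ Ax x σ := by
    intro σ hσ
    obtain ⟨w', hw'⟩ := hσ i1 1
    rw [hx1] at hw'
    exact single_add_ne h01.symm one_ne_zero one_ne_zero hw'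
  let k : (ι → F) ≃ₗ[F] (ι → F) := dg (Pi.mulSingle i0 l' * Pi.mulSingle i2 (l' * l')⁻¹ * Pi.mulSingle i1 l' : ι → Fˣ)
  have hkd : LinearEquiv.det k = 1 := by
    apply Units.ext
    show ((LinearEquiv.det (dg (Pi.mulSingle i0 l' * Pi.mulSingle i2 (l' * l')⁻¹ * Pi.mulSingle i1 l' : ι → Fˣ)) : Fˣ) :
      F) = 1
    rw [det_dg]
    have e : ∀ k, Algebra.norm F (((Pi.mulSingle i0 l' * Pi.mulSingle i2 (l' * l')⁻¹ * Pi.mulSingle i1 l' : ι → Fˣ) k :
        Fˣ) : F) = Algebra.norm F (((Pi.mulSingle i0 l' : ι → Fˣ) k : Fˣ) : F) *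
        Algebra.norm F (((Pi.mulSingle i2 (l' * l')⁻¹ : ι → Fˣ) k : Fˣ) : F) *
        Algebra.norm F (((Pi.mulSingle i1 l' : ι → Fˣ) k : Fˣ) : F) := fun k => by
      rw [Pi.mul_apply, Pi.mul_apply, Units.val_mul, Units.val_mul, map_mul, map_mul]
    rw [Finset.prod_congr rfl (fun k _ => e k), Finset.prod_mul_distrib, Finset.prod_mul_distrib, prod_mulSingle,
      prod_mulSingle, prod_mulSingle, ← map_mul, ← map_mul, ← Units.val_mul, ← Units.val_mul]
    have e2 : l' * (l' * l')⁻¹ * l' = 1 := by group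
    rw [e2, Units.val_one, map_one]
  have hk0 : ∀ w, k (Pi.single i0 w) = Pi.single i0 (l * w) := fun w => by
    show dg _ (Pi.single i0 w) = _
    rw [dg_single, Pi.mul_apply, Pi.mul_apply, Pi.mulSingle_eq_same, Pi.mulSingle_eq_of_ne h01,
      Pi.mulSingle_eq_of_ne h02, mul_one, mul_one]
    rfl
  have hk1 : ∀ w, k (Pi.single i1 w) = Pi.single i1 (l * w) := fun w => by
    show dg _ (Pi.single i1 w) = _
    rw [dg_single, Pi.mul_apply, Pi.mul_apply, Pi.mulSingle_eq_same, Pi.mulSingle_eq_of_ne h01.symm,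
      Pi.mulSingle_eq_of_ne h12, one_mul, one_mul]
    rfl
  have hk2 : ∀ w, k (Pi.single i2 w) = Pi.single i2 ((l * l)⁻¹ * w) := fun w => by
    show dg _ (Pi.single i2 w) = _
    rw [dg_single, Pi.mul_apply, Pi.mul_apply, Pi.mulSingle_eq_same, Pi.mulSingle_eq_of_ne h02.symm,
      Pi.mulSingle_eq_of_ne h12.symm, one_mul, mul_one, Units.val_inv_eq_inv_val]
    rfl
  have hkj : ∀ j, j ≠ i0 → j ≠ i1 → j ≠ i2 → ∀ w, k (Pi.single j w) = Pi.single j w := fun j hj0 hj1 hj2 w => by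
    show dg _ (Pi.single j w) = _
    rw [dg_single, Pi.mul_apply, Pi.mul_apply, Pi.mulSingle_eq_of_ne hj0, Pi.mulSingle_eq_of_ne hj1,
      Pi.mulSingle_eq_of_ne hj2, one_mul, one_mul, Units.val_one, one_mul]
  have hkx : x * k = k * x := by
    refine eq_of_single fun j w => ?_
    show x (k (Pi.single j w)) = k (x (Pi.single j w))
    by_cases hj1 : j = i1
    · subst hj1
      rw [hx1, map_add, hk0, hk1, hx1]
    · by_cases hj0 : j = i0
      · subst hj0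
        rw [hk0, hxj _ h01, hxj _ h01, hk0]
      · by_cases hj2 : j = i2
        · subst hj2
          rw [hk2, hxj _ hj1, hxj _ hj1, hk2]
        · rw [hkj _ hj0 hj1 hj2, hxj _ hj1, hkj _ hj0 hj1 hj2]
  let X : (LinearEquiv.det : ((ι → F) ≃ₗ[F] (ι → F)) →* Fˣ).ker := ⟨x, hxd⟩
  let K : (LinearEquiv.det : ((ι → F) ≃ₗ[F] (ι → F)) →* Fˣ).ker := ⟨k, hkd⟩
  have hXA : W.π X ∉ A := fun e => by
    obtain ⟨σ, hσ⟩ := W.hat X e
    exact hxσ σ hσ
  have hax : ∀ g : (LinearEquiv.det : ((ι → F) ≃ₗ[F] (ι → F)) →* Fˣ).ker, ∀ σ,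
      Ax (g : (ι → F) ≃ₗ[F] (ι → F)) σ → W.π g ∈ A := fun g σ hg => W.mem_of_ax h.max (x := X) hxσ hg
  let P : Subgroup (LinearEquiv.det : ((ι → F) ≃ₗ[F] (ι → F)) →* Fˣ).ker :=
    { carrier := {g | Ax (g : (ι → F) ≃ₗ[F] (ι → F)) 1}
      mul_mem' := fun {a b} h1 h2 => by
        have := h1.mul h2
        rw [mul_one] at this
        exact this
      one_mem' := Ax.one
      inv_mem' := fun {a} h1 => by
        have := h1.inv
        rw [inv_one] at this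
        exact this }
  have hPc : ∀ a b : (ι → F) ≃ₗ[F] (ι → F), Ax a 1 → Ax b 1 → a * b = b * a := by
    intro a b ha hb
    have key : ∀ a : (ι → F) ≃ₗ[F] (ι → F), Ax a 1 → ∀ i, ∃ r : F, ∀ w, a (Pi.single i w) = Pi.single i (w * r) := by
      intro a ha i
      obtain ⟨r, hr⟩ := ha i 1
      refine ⟨r, fun w => ?_⟩
      have e1 : (Pi.single i w : ι → F) = w • Pi.single i 1 := by
        rw [← Pi.single_smul, smul_eq_mul, mul_one]
      rw [e1, map_smul, hr, ← Pi.single_smul, smul_eq_mul]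
      rfl
    refine eq_of_single fun i w => ?_
    obtain ⟨r, hr⟩ := key a ha i
    obtain ⟨r', hr'⟩ := key b hb i
    rw [LinearEquiv.mul_apply, LinearEquiv.mul_apply, hr, hr', hr, hr']
    congr 1
    ring
  apply hXA
  refine nilp_cent h (K := P.map W.π) ?_ ?_ ?_ (k := W.π K) ⟨K, ax_dg _, rfl⟩ ?_ (by
    rw [← map_mul, ← map_mul]
    congr 1
    exact Subtype.ext hkx)
  · rintro _ ⟨g, hg, rfl⟩
    exact hax g 1 hg
  · rintro a ha _ ⟨g, hg, rfl⟩
    obtain ⟨y, rfl⟩ := W.surj a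
    obtain ⟨σ, hσ⟩ := W.hat _ ha
    refine ⟨y * g * y⁻¹, ?_, by rw [map_mul, map_mul, map_inv]⟩
    have h1 := (hσ.mul hg).mul hσ.inv
    rw [mul_one, mul_inv_cancel] at h1
    exact h1
  · rintro _ ⟨g, hg, rfl⟩ _ ⟨g', hg', rfl⟩
    rw [← map_mul, ← map_mul]
    congr 1
    exact Subtype.ext (hPc _ _ hg hg')
  · intro e
    obtain ⟨r, hr⟩ := (W.ker _).1 e
    have h1 : k (Pi.single i0 1) = r • Pi.single i0 1 := hr (Pi.single i0 1)
    have h2 : k (Pi.single i2 1) = r • Pi.single i2 1 := hr (Pi.single i2 1)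
    rw [hk0, mul_one, ← Pi.single_smul, smul_eq_mul, mul_one] at h1
    rw [hk2, mul_one, ← Pi.single_smul, smul_eq_mul, mul_one] at h2
    have h1' := Pi.single_injective _ h1
    have h2' := Pi.single_injective _ h2
    rcases hl with hl | ⟨hl1, i3, h30, h31, h32⟩
    · apply hl
      rw [← h1'] at h2'
      rw [mul_comm (l * l) l]
      nth_rewrite 1 [← h2']
      exact inv_mul_cancel₀ (mul_ne_zero hl0 hl0)
    · have h3 : k (Pi.single i3 1) = r • Pi.single i3 1 := hr (Pi.single i3 1)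
      rw [hkj _ h30 h31 h32, ← Pi.single_smul, smul_eq_mul, mul_one] at h3
      exact hl1 (h1'.trans (Pi.single_injective _ h3).symm)

/-- **`mm = 1`, `q = 2`** -/
theorem case_III [Fintype ι] [Finite F] (W : WM A F F ι) (hA : IsCoatom A) {i0 i1 i2 : ι} (h01 : i0 ≠ i1)
    (h02 : i0 ≠ i2) (h12 : i1 ≠ i2) (hF : ∀ a : F, a = 0 ∨ a = 1) : False := by
  have h11 : (1 : F) + 1 = 0 := by
    rcases hF (1 + 1) with e | e
    · exact e
    · exact absurd (by linear_combination e : (1 : F) = 0) one_ne_zero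
  let v : ι → F := fun _ => 1
  have hv : v = ∑ i, Pi.single i (1 : F) := (Finset.univ_sum_single v).symm
  have hfix : ∀ g : (ι → F) ≃ₗ[F] (ι → F), ∀ σ, Ax g σ → g v = v := by
    intro g σ hg
    have h1 : ∀ i, g (Pi.single i 1) = Pi.single (σ i) 1 := by
      intro i
      obtain ⟨w, hw⟩ := hg i 1
      rcases hF w with rfl | rfl
      · rw [Pi.single_zero, LinearEquiv.map_eq_zero_iff, Pi.single_eq_zero_iff] at hw
        exact absurd hw one_ne_zero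
      · exact hw
    rw [hv, map_sum, Finset.sum_congr rfl (fun i _ => h1 i)]
    exact Equiv.sum_comp σ (fun i => (Pi.single i 1 : ι → F))
  let φ : (ι → F) →ₗ[F] F := LinearMap.proj (R := F) (φ := fun _ : ι => F) i0 +
    LinearMap.proj (R := F) (φ := fun _ : ι => F) i1
  let N : (ι → F) →ₗ[F] (ι → F) := φ.smulRight v
  have hNap : ∀ u, N u = (u i0 + u i1) • v := fun u => rfl
  have hN : ∀ u, N (N u) = 0 := by
    intro u
    rw [hNap u, map_smul, hNap v]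
    show (u i0 + u i1) • ((1 : F) + 1) • v = 0
    rw [h11, zero_smul, smul_zero]
  let y : (ι → F) ≃ₗ[F] (ι → F) := unip N hN
  have hyd : LinearEquiv.det y = 1 := det_unip _ _
  have hyv : y v = v := by
    show v + N v = v
    rw [hNap v]
    show v + ((1 : F) + 1) • v = v
    rw [h11, zero_smul, add_zero]
  have hyσ : ∀ σ, ¬ Ax y σ := by
    intro σ hσ
    obtain ⟨w, hw⟩ := hσ i0 1
    have h1 : y (Pi.single i0 1) = Pi.single i0 1 + v := by
      show Pi.single i0 1 + N (Pi.single i0 1) = _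
      rw [hNap, Pi.single_eq_same, Pi.single_eq_of_ne h01.symm, add_zero, one_smul]
    rw [h1] at hw
    have e1 := congrFun hw i1
    have e2 := congrFun hw i2
    rw [Pi.add_apply, Pi.single_eq_of_ne h01.symm, zero_add] at e1
    rw [Pi.add_apply, Pi.single_eq_of_ne h02.symm, zero_add] at e2
    have h2 : i1 = σ i0 := by
      by_contra h2
      rw [Pi.single_eq_of_ne h2] at e1
      exact one_ne_zero e1
    have h3 : i2 = σ i0 := by
      by_contra h3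
      rw [Pi.single_eq_of_ne h3] at e2
      exact one_ne_zero e2
    exact h12 (h2.trans h3.symm)
  let x : (ι → F) ≃ₗ[F] (ι → F) := tv h01 LinearMap.id
  have hxd : LinearEquiv.det x = 1 := det_unip _ _
  let Y : Subgroup (LinearEquiv.det : ((ι → F) ≃ₗ[F] (ι → F)) →* Fˣ).ker :=
    { carrier := {g | (g : (ι → F) ≃ₗ[F] (ι → F)) v = v}
      mul_mem' := fun {a b} h1 h2 => by
        show (a : (ι → F) ≃ₗ[F] (ι → F)) ((b : (ι → F) ≃ₗ[F] (ι → F)) v) = v
        rw [show (b : (ι → F) ≃ₗ[F] (ι → F)) v = v from h2]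
        exact h1
      one_mem' := rfl
      inv_mem' := fun {a} h1 => by
        show (a : (ι → F) ≃ₗ[F] (ι → F)).symm v = v
        rw [LinearEquiv.symm_apply_eq]
        exact h1.symm }
  have h1 : A ≤ Y.map W.π := by
    intro q hq
    obtain ⟨g, rfl⟩ := W.surj q
    obtain ⟨σ, hσ⟩ := W.hat g hq
    exact ⟨g, hfix _ σ hσ, rfl⟩
  have h2 : Y.map W.π ≠ A := by
    intro e
    have h3' : W.π ⟨y, hyd⟩ ∈ Y.map W.π := ⟨⟨y, hyd⟩, hyv, rfl⟩
    have h3 : W.π ⟨y, hyd⟩ ∈ A := e.le h3'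
    obtain ⟨σ, hσ⟩ := W.hat _ h3
    exact hyσ σ hσ
  have h3 := hA.2 _ (lt_of_le_of_ne h1 (Ne.symm h2))
  have h4 : W.π ⟨x, hxd⟩ ∈ Y.map W.π := by rw [h3]; exact mem_top _
  obtain ⟨p, hp, hpe⟩ := h4
  have h5 : W.π (p⁻¹ * ⟨x, hxd⟩) = 1 := by rw [map_mul, map_inv, hpe, inv_mul_cancel]
  obtain ⟨r, hr⟩ := (W.ker _).1 h5
  have h6 : (p : (ι → F) ≃ₗ[F] (ι → F)).symm (x v) = r • v := hr v
  rw [LinearEquiv.symm_apply_eq, map_smul, show (p : (ι → F) ≃ₗ[F] (ι → F)) v = v from hp] at h6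
  have h7 : x v = v + Pi.single i0 1 := rfl
  rw [h7] at h6
  have e0 := congrFun h6 i0
  have e2 := congrFun h6 i2
  rw [Pi.add_apply, Pi.single_eq_same, Pi.smul_apply, smul_eq_mul] at e0
  rw [Pi.add_apply, Pi.single_eq_of_ne h02.symm, Pi.smul_apply, smul_eq_mul, add_zero] at e2
  have e0' : (1 : F) + 1 = r * 1 := e0
  have e2' : (1 : F) = r * 1 := e2
  rw [← e2', h11] at e0'
  exact zero_ne_one e0'

end WM

end Cfsg.Agent.H173.EP
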